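import Mathlib

/-!
# The normalizer of a cyclic CC-subgroup (helper759, S4792)

`card_normalizer` : `C` cyclic of order `t > 1` with `C_G(c) = C` for `1 ≠ c ∈ C`: `|N_G(C)| = w t` with
`0 < w < t` and `w ≡ |G| / t` modulo `t`.
-/

set_option autoImplicit false

namespace Cfsg.Agent.H759.Conj

open Subgroup

/-- a group acting freely on a finite type -/
theorem card_dvd_of_free {H X : Type*} [Group H] [Finite H] [Finite X] [MulAction H X]
    (hfree : ∀ (h : H) (x : X), h • x = x → h = 1) : Nat.card H ∣ Nat.card X := by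
  classical
  have hst : ∀ x : X, MulAction.stabilizer H x = ⊥ := by
    intro x
    rw [eq_bot_iff]
    intro h hh
    exact mem_bot.2 (hfree h x hh)
  have e := MulAction.selfEquivSigmaOrbitsQuotientStabilizer H X
  have e2 : (Σ ω : Quotient (MulAction.orbitRel H X), H ⧸ MulAction.stabilizer H ω.out) ≃
      Quotient (MulAction.orbitRel H X) × H := by
    refine (Equiv.sigmaCongrRight fun ω => ?_).trans (Equiv.sigmaEquivProd _ _)
    rw [hst]
    exact (QuotientGroup.quotientBot (G := H)).toEquiv
  rw [Nat.card_congr (e.trans e2), Nat.card_prod]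
  exact dvd_mul_left _ _

set_option linter.unusedSectionVars false

variable {G : Type*} [Group G] [Finite G] {C : Subgroup G}

/-- elements of prime order of the normalizer lie in `C` -/
theorem mem_of_prime (hC : ∀ c ∈ C, c ≠ 1 → centralizer ({c} : Set G) = C) (hcyc : IsCyclic C) {y : G} {r : ℕ}
    (hr : r.Prime) (hy : orderOf y = r) (hrC : r ∣ Nat.card C) (hyN : y ∈ normalizer (C : Set G)) : y ∈ C := by
  have : Fact r.Prime := ⟨hr⟩
  obtain ⟨c, hc⟩ := exists_prime_orderOf_dvd_card' (G := C) r hrC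
  have hcG : orderOf (c : G) = r := by rw [Subgroup.orderOf_coe, hc]
  have hc1 : (c : G) ≠ 1 := by
    intro h
    rw [h, orderOf_one] at hcG
    exact hr.one_lt.ne hcG
  -- `y` normalizes `⟨c⟩`
  have hyc : y * c * y⁻¹ ∈ C := (mem_normalizer_iff.1 hyN c).1 c.2
  have hmem : y * c * y⁻¹ ∈ zpowers (c : G) := by
    have h1 : orderOf (y * c * y⁻¹) = r := by
      have h3 : SemiconjBy y (c : G) (y * c * y⁻¹) := by
        show y * (c : G) = y * c * y⁻¹ * y
        group
      rw [← h3.orderOf_eq, hcG]
    have h2 : (⟨y * c * y⁻¹, hyc⟩ : C) ∈ zpowers c := by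
      have h4 : orderOf (⟨y * c * y⁻¹, hyc⟩ : C) = orderOf c := by
        rw [Subgroup.orderOf_mk, h1, hc]
      classical
      have := Fintype.ofFinite C
      have h5 := IsCyclic.card_pow_eq_one_le (α := C) (n := r) hr.pos
      by_contra hcon
      have h6 : ∀ x ∈ zpowers c, x ^ r = 1 := by
        intro x hx
        obtain ⟨k, rfl⟩ := mem_zpowers_iff.1 hx
        rw [← zpow_natCast, zpow_comm, zpow_natCast, ← hc, pow_orderOf_eq_one, one_zpow]
      have h7 : (⟨y * c * y⁻¹, hyc⟩ : C) ^ r = 1 := by rw [← hc, ← h4, pow_orderOf_eq_one]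
      have h8 : (insert (⟨y * c * y⁻¹, hyc⟩ : C) (Finset.univ.filter fun x : C => x ∈ zpowers c)).card ≤
          (Finset.univ.filter fun a : C => a ^ r = 1).card := by
        apply Finset.card_le_card
        intro x hx
        rw [Finset.mem_insert, Finset.mem_filter] at hx
        rw [Finset.mem_filter]
        refine ⟨Finset.mem_univ _, ?_⟩
        rcases hx with rfl | ⟨-, hx⟩
        · exact h7
        · exact h6 x hx
      rw [Finset.card_insert_of_notMem (by simpa using hcon)] at h8
      have h9 : (Finset.univ.filter fun x : C => x ∈ zpowers c).card = r := by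
        have h10 : Nat.card (zpowers c) = r := by rw [Nat.card_zpowers, hc]
        rw [← h10, Nat.card_eq_fintype_card, Fintype.card_subtype]
      rw [h9] at h8
      have h11 : (Finset.univ.filter fun a : C => a ^ r = 1).card ≤ r := by
        simpa using h5
      omega
    obtain ⟨k, hk⟩ := mem_zpowers_iff.1 h2
    exact mem_zpowers_iff.2 ⟨k, by simpa using congrArg (Subtype.val : C → G) hk⟩
  -- `y` centralizes `c`
  obtain ⟨k, hk⟩ := mem_zpowers_iff.1 hmem
  have hrk : ∀ j : ℕ, y ^ j * c * (y ^ j)⁻¹ = (c : G) ^ (k ^ j) := by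
    intro j
    induction j with
    | zero => simp
    | succ j ih =>
      have h1 : y ^ (j + 1) * c * (y ^ (j + 1))⁻¹ = y ^ j * (y * c * y⁻¹) * (y ^ j)⁻¹ := by
        rw [pow_succ]; group
      rw [h1, ← hk, ← conj_zpow, ih, ← zpow_mul, pow_succ]
  have h1 := hrk r
  rw [show y ^ r = 1 by rw [← hy, pow_orderOf_eq_one], one_mul, inv_one, mul_one] at h1
  have h2 : (c : G) ^ (k ^ r - 1) = 1 := by
    rw [zpow_sub, ← h1, zpow_one, mul_inv_cancel]
  have h3 : (r : ℤ) ∣ k ^ r - 1 := by
    have := orderOf_dvd_iff_zpow_eq_one.2 h2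
    rwa [hcG] at this
  have h4 : (r : ℤ) ∣ k - 1 := by
    have h6 : (k : ZMod r) ^ r = (k : ZMod r) := ZMod.pow_card _
    have h7 : ((k ^ r - 1 : ℤ) : ZMod r) = 0 := (ZMod.intCast_zmod_eq_zero_iff_dvd _ r).2 h3
    apply (ZMod.intCast_zmod_eq_zero_iff_dvd _ r).1
    push_cast at h7 ⊢
    rw [h6] at h7
    exact h7
  have h5 : y * c * y⁻¹ = c := by
    rw [← hk]
    have h6 : (c : G) ^ (k - 1) = 1 := by
      rw [← orderOf_dvd_iff_zpow_eq_one, hcG]
      exact h4
    calc (c : G) ^ k = (c : G) ^ (k - 1) * c := by rw [← zpow_add_one]; congr 1; ring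
      _ = c := by rw [h6, one_mul]
  have h6 : y ∈ centralizer ({(c : G)} : Set G) := by
    rw [mem_centralizer_singleton_iff]
    calc y * c = (y * c * y⁻¹) * y := by group
      _ = c * y := by rw [h5]
  rwa [hC c c.2 hc1] at h6

/-- conjugate elements of `C` are conjugate in the normalizer -/
theorem mem_normalizer_of (hC : ∀ c ∈ C, c ≠ 1 → centralizer ({c} : Set G) = C) {c g : G} (hc : c ∈ C) (hc1 : c ≠ 1)
    (h : g⁻¹ * c * g ∈ C) : g ∈ normalizer (C : Set G) := by
  have h1 : g⁻¹ * c * g ≠ 1 := by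
    intro h2
    apply hc1
    calc c = g * (g⁻¹ * c * g) * g⁻¹ := by group
      _ = 1 := by rw [h2]; group
  have h2 := hC _ h h1
  have h3 := hC _ hc hc1
  rw [mem_normalizer_iff]
  intro x
  constructor
  · intro hx
    rw [← h2, mem_centralizer_singleton_iff] at hx
    rw [← h3, mem_centralizer_singleton_iff]
    calc g * x * g⁻¹ * c = g * (x * (g⁻¹ * c * g)) * g⁻¹ := by group
      _ = g * ((g⁻¹ * c * g) * x) * g⁻¹ := by rw [hx]
      _ = c * (g * x * g⁻¹) := by group
  · intro hx
    rw [← h3, mem_centralizer_singleton_iff] at hx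
    rw [← h2, mem_centralizer_singleton_iff]
    calc x * (g⁻¹ * c * g) = g⁻¹ * ((g * x * g⁻¹) * c) * g := by group
      _ = g⁻¹ * (c * (g * x * g⁻¹)) * g := by rw [hx]
      _ = g⁻¹ * c * g * x := by group

/-- **The normalizer of a cyclic CC-subgroup.** -/
theorem card_normalizer (hC1 : C ≠ ⊥) (hC : ∀ c ∈ C, c ≠ 1 → centralizer ({c} : Set G) = C) (hcyc : IsCyclic C) :
    ∃ w : ℕ, Nat.card (normalizer (C : Set G)) = w * Nat.card C ∧ 0 < w ∧ w < Nat.card C ∧
      Nat.card G / Nat.card C % Nat.card C = w := by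
  classical
  set N : Subgroup G := normalizer (C : Set G) with hN
  have hCN : C ≤ N := Subgroup.le_normalizer
  obtain ⟨w, hw⟩ : Nat.card C ∣ Nat.card N := Subgroup.card_dvd_of_le hCN
  have hpos : 0 < Nat.card C := Nat.card_pos
  have hw0 : 0 < w := by
    apply Nat.pos_of_ne_zero
    rintro rfl
    have : 0 < Nat.card N := Nat.card_pos
    omega
  obtain ⟨c, hc, hc1⟩ : ∃ c ∈ C, c ≠ 1 := by
    by_contra hcon
    push Not at hcon
    apply hC1
    rw [eq_bot_iff]
    intro x hx
    exact mem_bot.2 (hcon x hx)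
  -- `w ≤ t - 1`
  have hlt : w < Nat.card C := by
    let f : N ⧸ (C.subgroupOf N) → {x : C // x ≠ 1} := Quotient.lift
      (fun n : N => ⟨⟨(n : G) * c * (n : G)⁻¹, (mem_normalizer_iff.1 n.2 c).1 hc⟩, by
        intro h
        apply hc1
        have h1 : (n : G) * c * (n : G)⁻¹ = 1 := congrArg Subtype.val h
        calc c = (n : G)⁻¹ * ((n : G) * c * (n : G)⁻¹) * n := by group
          _ = 1 := by rw [h1]; group⟩) (by
        intro a b hab
        have h1 : a⁻¹ * b ∈ C.subgroupOf N := QuotientGroup.leftRel_apply.1 hab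
        rw [mem_subgroupOf, ← hC c hc hc1, mem_centralizer_singleton_iff] at h1
        apply Subtype.ext
        apply Subtype.ext
        show (a : G) * c * (a : G)⁻¹ = b * c * (b : G)⁻¹
        have h2 : ((a⁻¹ * b : N) : G) = (a : G)⁻¹ * b := rfl
        rw [h2] at h1
        calc (a : G) * c * (a : G)⁻¹ = a * (c * ((a : G)⁻¹ * b)) * (b : G)⁻¹ := by group
          _ = a * (((a : G)⁻¹ * b) * c) * (b : G)⁻¹ := by rw [h1]
          _ = b * c * (b : G)⁻¹ := by group)
    have hf : Function.Injective f := by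
      intro x y
      induction x using QuotientGroup.induction_on with
      | _ a =>
      induction y using QuotientGroup.induction_on with
      | _ b =>
      intro h
      have h1 : (a : G) * c * (a : G)⁻¹ = b * c * (b : G)⁻¹ :=
        congrArg (fun z : {x : C // x ≠ 1} => ((z : C) : G)) h
      rw [QuotientGroup.eq, mem_subgroupOf, ← hC c hc hc1, mem_centralizer_singleton_iff]
      show (a : G)⁻¹ * b * c = c * ((a : G)⁻¹ * b)
      calc (a : G)⁻¹ * b * c = (a : G)⁻¹ * (b * c * (b : G)⁻¹) * b := by group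
        _ = (a : G)⁻¹ * (a * c * (a : G)⁻¹) * b := by rw [h1]
        _ = c * ((a : G)⁻¹ * b) := by group
    have h1 := Nat.card_le_card_of_injective f hf
    have h2 : Nat.card {x : C // x ≠ 1} < Nat.card C := by
      have := Fintype.ofFinite C
      rw [Nat.card_eq_fintype_card, Nat.card_eq_fintype_card]
      exact Fintype.card_subtype_lt (x := (1 : C)) (by simp)
    have h3 : Nat.card (N ⧸ (C.subgroupOf N)) = w := by
      have h4 := Subgroup.card_eq_card_quotient_mul_card_subgroup (C.subgroupOf N)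
      have h5 : Nat.card (C.subgroupOf N) = Nat.card C := Nat.card_congr (Subgroup.subgroupOfEquivOfLe hCN).toEquiv
      rw [h5, hw, mul_comm (Nat.card C)] at h4
      exact (Nat.eq_of_mul_eq_mul_right hpos h4).symm
    omega
  refine ⟨w, by rw [hw, mul_comm], hw0, hlt, ?_⟩
  -- the congruence
  have hindex : Nat.card C ∣ Nat.card (G ⧸ N) - 1 := by
    let X := {x : G ⧸ N // x ≠ ((1 : G) : G ⧸ N)}
    let act : MulAction C X :=
      { smul := fun h x => ⟨(h : G) • (x : G ⧸ N), by
          intro heq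
          apply x.2
          have h1 : (x : G ⧸ N) = (h : G)⁻¹ • (((1 : G) : G ⧸ N)) := eq_inv_smul_iff.2 heq
          rw [h1]
          show (((h : G)⁻¹ * 1 : G) : G ⧸ N) = _
          rw [QuotientGroup.eq]
          simpa using hCN h.2⟩
        one_smul := fun x => Subtype.ext (one_smul G (x : G ⧸ N))
        mul_smul := fun a b x => Subtype.ext (mul_smul (a : G) (b : G) (x : G ⧸ N)) }
    have h1 : Nat.card C ∣ Nat.card X := by
      refine card_dvd_of_free (H := C) (X := X) ?_
      intro h x hx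
      by_contra hh1
      have hx' : (h : G) • (x : G ⧸ N) = x := congrArg Subtype.val hx
      obtain ⟨x, hx1⟩ := x
      apply hx1
      change (h : G) • x = x at hx'
      induction x using QuotientGroup.induction_on with
      | _ g =>
      have h2 : g⁻¹ * (h : G) * g ∈ N := by
        have h3 : ((h : G) * g : G ⧸ N) = ((g : G) : G ⧸ N) := hx'
        rw [eq_comm, QuotientGroup.eq] at h3
        simpa [mul_assoc] using h3
      -- an element of prime order
      obtain ⟨r, hr, hrh⟩ := Nat.exists_prime_and_dvd (n := orderOf h) (by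
        intro h3
        exact hh1 (orderOf_eq_one_iff.1 h3))
      obtain ⟨z, hz⟩ : ∃ z : C, z = h ^ (orderOf h / r) := ⟨_, rfl⟩
      have hzo : orderOf (z : G) = r := by
        rw [Subgroup.orderOf_coe, hz]
        exact orderOf_pow_orderOf_div (orderOf_pos h).ne' hrh
      have hz1 : (z : G) ≠ 1 := by
        intro h3
        rw [h3, orderOf_one] at hzo
        exact hr.one_lt.ne hzo
      have h3 : g⁻¹ * (z : G) * g ∈ N := by
        have h4 : g⁻¹ * (z : G) * g = (g⁻¹ * (h : G) * g) ^ (orderOf h / r) := by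
          rw [hz]
          have := conj_pow (a := g⁻¹) (b := (h : G)) (i := orderOf h / r)
          rw [inv_inv] at this
          rw [this]
          rfl
        rw [h4]
        exact pow_mem h2 _
      have h4 : orderOf (g⁻¹ * (z : G) * g) = r := by
        have h5 : SemiconjBy g⁻¹ (z : G) (g⁻¹ * z * g) := by
          show g⁻¹ * (z : G) = g⁻¹ * z * g * g⁻¹
          group
        rw [← h5.orderOf_eq, hzo]
      have h5 : g⁻¹ * (z : G) * g ∈ C := mem_of_prime hC hcyc hr h4
        (hzo ▸ (Subgroup.orderOf_coe z ▸ orderOf_dvd_natCard z)) h3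
      have h6 : g ∈ N := mem_normalizer_of hC z.2 hz1 h5
      rw [eq_comm, QuotientGroup.eq]
      simpa using h6
    have h2 : Nat.card X = Nat.card (G ⧸ N) - 1 := by
      have := Fintype.ofFinite (G ⧸ N)
      rw [Nat.card_eq_fintype_card, Nat.card_eq_fintype_card, Fintype.card_subtype_compl,
        Fintype.card_subtype_eq]
    rwa [h2] at h1
  have h1 : Nat.card G = Nat.card (G ⧸ N) * (w * Nat.card C) := by
    rw [← mul_comm (Nat.card C) w, ← hw]
    exact Subgroup.card_eq_card_quotient_mul_card_subgroup N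
  have h2 : Nat.card G / Nat.card C = Nat.card (G ⧸ N) * w := by
    rw [h1, ← mul_assoc, Nat.mul_div_cancel _ hpos]
  have h3 : 0 < Nat.card (G ⧸ N) := Nat.card_pos
  obtain ⟨k, hk⟩ := hindex
  have h4 : Nat.card (G ⧸ N) = Nat.card C * k + 1 := by omega
  rw [h2, h4, add_mul, one_mul, mul_assoc, Nat.mul_add_mod, Nat.mod_eq_of_lt hlt]

end Cfsg.Agent.H759.Conj
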